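import Mathlib

/-!
# S3691, residual case F-D+2: arithmetic (helper559)

From `c K s = N z`, `N = q ^ (2 m - 2) (q ^ m - 1) (q ^ (m - 1) - 1)`, `c ∣ 2 (q + 1)`, `s ∣ (2 or 8) f`, `z ∣ 2`: the numerical
fields of the structure `D2`.
-/

set_option autoImplicit false

namespace Cfsg.Agent.H559.D2

/-- the data -/
structure ND (p f m c K s z : ℕ) : Prop where
  hp : p.Prime
  hf : 1 ≤ f
  hm : 5 ≤ m
  hc : c ∣ 2 * (p ^ f + 1)
  hs : s ∣ (if p = 2 then 2 else 8) * f
  hz : z ∣ 2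
  hz2 : p = 2 → z = 1
  eq : c * K * s = (((p ^ f) ^ m - 1) * (p ^ f) ^ (m - 1)) * (((p ^ f) ^ (m - 1) - 1) * (p ^ f) ^ (m - 1)) * z

namespace ND

variable {p f m c K s z : ℕ} (h : ND p f m c K s z)

include h

theorem eq' : c * K * s = (p ^ (f * (2 * m - 2)) * (p ^ (f * m) - 1) * (p ^ (f * (m - 1)) - 1)) * z := by
  rw [h.eq]
  have h1 : (p ^ f) ^ (m - 1) * (p ^ f) ^ (m - 1) = p ^ (f * (2 * m - 2)) := by
    rw [← pow_mul, ← pow_add]
    congr 1
    have := h.hm
    rw [← mul_add]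
    congr 1
    omega
  rw [← h1, ← pow_mul p f m, ← pow_mul p f (m - 1)]
  ring

theorem one_lt (k : ℕ) (hk : 1 ≤ k) : 1 < p ^ (f * k) :=
  Nat.one_lt_pow (by have := Nat.mul_pos h.hf hk; omega) h.hp.one_lt

theorem N_pos : 0 < p ^ (f * (2 * m - 2)) * (p ^ (f * m) - 1) * (p ^ (f * (m - 1)) - 1) := by
  have h1 := h.one_lt m (by have := h.hm; omega)
  have h2 := h.one_lt (m - 1) (by have := h.hm; omega)
  exact Nat.mul_pos (Nat.mul_pos (pow_pos h.hp.pos _) (by omega)) (by omega)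

theorem z_pos : 0 < z := Nat.pos_of_dvd_of_pos h.hz (by norm_num)

theorem pos : 0 < c ∧ 0 < K ∧ 0 < s := by
  have h1 : 0 < c * K * s := by rw [h.eq']; exact Nat.mul_pos h.N_pos h.z_pos
  refine ⟨Nat.pos_of_ne_zero ?_, Nat.pos_of_ne_zero ?_, Nat.pos_of_ne_zero ?_⟩ <;> rintro rfl <;> simp at h1

theorem card_dvd : K ∣ 2 * (p ^ (f * (2 * m - 2)) * (p ^ (f * m) - 1) * (p ^ (f * (m - 1)) - 1)) := by
  refine Dvd.dvd.trans ?_ (Nat.mul_dvd_mul_right h.hz _)
  rw [mul_comm z, ← h.eq']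
  exact ⟨c * s, by ring⟩

theorem card_dvd2 (hp2 : p = 2) : K ∣ p ^ (f * (2 * m - 2)) * (p ^ (f * m) - 1) * (p ^ (f * (m - 1)) - 1) := by
  have h1 := h.eq'
  rw [h.hz2 hp2, mul_one] at h1
  rw [← h1]
  exact ⟨c * s, by ring⟩

theorem card_ge : p ^ (f * (2 * m - 2)) * (p ^ (f * m) - 1) * (p ^ (f * (m - 1)) - 1) ≤
    2 * (p ^ f + 1) * ((if p = 2 then 2 else 8) * f) * K := by
  have h1 : c ≤ 2 * (p ^ f + 1) := Nat.le_of_dvd (by positivity) h.hc
  have hf := h.hf
  have h2 : s ≤ (if p = 2 then 2 else 8) * f := Nat.le_of_dvd (Nat.mul_pos (by split_ifs <;> norm_num) hf) h.hs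
  calc _ ≤ (p ^ (f * (2 * m - 2)) * (p ^ (f * m) - 1) * (p ^ (f * (m - 1)) - 1)) * z := Nat.le_mul_of_pos_right _ h.z_pos
    _ = c * K * s := h.eq'.symm
    _ = c * s * K := by ring
    _ ≤ _ := Nat.mul_le_mul_right _ (Nat.mul_le_mul h1 h2)

theorem not_dvd_pow_sub {k : ℕ} (hk : 1 ≤ k) : ¬ p ∣ p ^ (f * k) - 1 := by
  intro hd
  have h1 := h.one_lt k hk
  have h2 : p ∣ p ^ (f * k) := dvd_pow_self p (by have := Nat.mul_pos h.hf hk; omega)
  have h3 : p ∣ 1 := by
    have := Nat.dvd_sub h2 hd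
    rwa [Nat.sub_sub_self h1.le] at this
  exact h.hp.one_lt.ne' (Nat.dvd_one.1 h3)

theorem card_p : f * (2 * m - 2) ≤ K.factorization p + (if p = 2 then (4 * f).factorization p else f.factorization p) := by
  obtain ⟨hc0, hK0, hs0⟩ := h.pos
  have hm := h.hm
  have hf := h.hf
  have hfac : (c * K * s).factorization p =
      ((p ^ (f * (2 * m - 2)) * (p ^ (f * m) - 1) * (p ^ (f * (m - 1)) - 1)) * z).factorization p := by rw [h.eq']
  have hA : p ^ (f * (2 * m - 2)) ≠ 0 := (pow_pos h.hp.pos _).ne'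
  have hB : p ^ (f * m) - 1 ≠ 0 := by have := h.one_lt m (by omega); omega
  have hC : p ^ (f * (m - 1)) - 1 ≠ 0 := by have := h.one_lt (m - 1) (by omega); omega
  rw [Nat.factorization_mul (Nat.mul_pos hc0 hK0).ne' hs0.ne', Nat.factorization_mul hc0.ne' hK0.ne',
    Nat.factorization_mul h.N_pos.ne' h.z_pos.ne', Nat.factorization_mul (mul_ne_zero hA hB) hC,
    Nat.factorization_mul hA hB] at hfac
  simp only [Finsupp.add_apply] at hfac
  rw [Nat.factorization_eq_zero_of_not_dvd (h.not_dvd_pow_sub (k := m) (by omega)),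
    Nat.factorization_eq_zero_of_not_dvd (h.not_dvd_pow_sub (k := m - 1) (by omega)),
    Nat.Prime.factorization_pow h.hp, Finsupp.single_eq_same] at hfac
  -- the `p`-part of `c`
  have hc1 : c.factorization p ≤ (2 * (p ^ f + 1)).factorization p :=
    (Nat.factorization_le_iff_dvd hc0.ne' (by positivity)).2 h.hc p
  have hpf : ¬ p ∣ p ^ f + 1 := by
    intro hd
    have h2 : p ∣ p ^ f := dvd_pow_self p (by omega)
    exact h.hp.one_lt.ne' (Nat.dvd_one.1 ((Nat.dvd_add_right h2).1 hd))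
  rw [Nat.factorization_mul (by norm_num) (by positivity), Finsupp.add_apply,
    Nat.factorization_eq_zero_of_not_dvd hpf, add_zero] at hc1
  have hs1 : s.factorization p ≤ ((if p = 2 then 2 else 8) * f).factorization p :=
    (Nat.factorization_le_iff_dvd hs0.ne' (Nat.mul_pos (by split_ifs <;> norm_num) hf).ne').2 h.hs p
  by_cases hp2 : p = 2
  · rw [if_pos hp2] at hs1 ⊢
    subst hp2
    have h4 : (4 * f).factorization 2 = (2 : ℕ).factorization 2 + (2 * f).factorization 2 := by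
      rw [show 4 * f = 2 * (2 * f) by ring, Nat.factorization_mul (by norm_num) (by omega), Finsupp.add_apply]
    omega
  · rw [if_neg hp2] at hs1 ⊢
    have h2 : (2 : ℕ).factorization p = 0 := Nat.factorization_eq_zero_of_not_dvd fun hd =>
      hp2 ((Nat.prime_dvd_prime_iff_eq h.hp Nat.prime_two).1 hd)
    have h8 : (8 : ℕ).factorization p = 0 := Nat.factorization_eq_zero_of_not_dvd fun hd => by
      have h3 : (8 : ℕ) = 2 ^ 3 := by norm_num
      rw [h3] at hd
      exact hp2 ((Nat.prime_dvd_prime_iff_eq h.hp Nat.prime_two).1 (h.hp.dvd_of_dvd_pow hd))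
    rw [Nat.factorization_mul (by norm_num) (by omega), Finsupp.add_apply, h8, zero_add] at hs1
    omega

theorem rdvd (r : ℕ) (hr : r.Prime) (ho : orderOf (p : ZMod r) = f * m ∨ orderOf (p : ZMod r) = f * (m - 1)) : r ∣ K := by
  have hm := h.hm
  have hf := h.hf
  obtain ⟨k, hk4, hkm, hok⟩ : ∃ k, 4 ≤ k ∧ (k = m ∨ k = m - 1) ∧ orderOf (p : ZMod r) = f * k := by
    rcases ho with ho | ho
    · exact ⟨m, by omega, Or.inl rfl, ho⟩
    · exact ⟨m - 1, by omega, Or.inr rfl, ho⟩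
  have := Fact.mk hr
  have hfk : 4 * f ≤ f * k := by rw [mul_comm]; exact Nat.mul_le_mul_left f hk4
  have hp0 : (p : ZMod r) ≠ 0 := by
    intro h0
    rw [h0] at hok
    have h1 : orderOf (0 : ZMod r) = 0 := orderOf_eq_zero_iff'.2 fun n hn => by
      rw [zero_pow hn.ne']
      exact zero_ne_one
    omega
  have hdr : f * k ∣ r - 1 := by
    rw [← hok]
    exact ZMod.orderOf_dvd_card_sub_one hp0
  have hrlt : f * k < r := by
    have h1 := hr.one_lt
    have h2 := Nat.le_of_dvd (by omega) hdr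
    omega
  have hr2 : ¬ r ∣ 2 := fun hd => by
    have := Nat.le_of_dvd (by norm_num) hd
    omega
  -- `r` does not divide `c`, `s`
  have hrc : ¬ r ∣ c := by
    intro hd
    rcases (hr.dvd_mul).1 (hd.trans h.hc) with h1 | h1
    · exact hr2 h1
    · have h2 : (p : ZMod r) ^ (2 * f) = 1 := by
        have h3 : ((p ^ f + 1 : ℕ) : ZMod r) = 0 := (ZMod.natCast_eq_zero_iff _ _).2 h1
        push_cast at h3
        have h4 : (p : ZMod r) ^ f = -1 := eq_neg_of_add_eq_zero_left h3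
        rw [mul_comm, pow_mul, h4]
        ring
      have h3 := orderOf_dvd_of_pow_eq_one h2
      rw [hok] at h3
      have := Nat.le_of_dvd (by omega) h3
      omega
  have hrs : ¬ r ∣ s := by
    intro hd
    rcases (hr.dvd_mul).1 (hd.trans h.hs) with h1 | h1
    · have h2 : r ∣ 2 := by
        split_ifs at h1
        · exact h1
        · rw [show (8 : ℕ) = 2 ^ 3 by norm_num] at h1
          exact hr.dvd_of_dvd_pow h1
      exact hr2 h2
    · have := Nat.le_of_dvd (by omega) h1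
      omega
  have hrN : r ∣ c * K * s := by
    rw [h.eq']
    refine Dvd.dvd.mul_right ?_ z
    have h1 : r ∣ p ^ (f * k) - 1 := by
      have h2 : ((p ^ (f * k) - 1 : ℕ) : ZMod r) = 0 := by
        rw [Nat.cast_sub (pow_pos h.hp.pos _), Nat.cast_pow, Nat.cast_one, ← hok, pow_orderOf_eq_one, sub_self]
      exact (ZMod.natCast_eq_zero_iff _ _).1 h2
    rcases hkm with rfl | rfl
    · exact Dvd.dvd.mul_right (Dvd.dvd.mul_left h1 _) _
    · exact Dvd.dvd.mul_left h1 _
  rcases (hr.dvd_mul).1 hrN with h1 | h1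
  · exact ((hr.dvd_mul).1 h1).resolve_left hrc
  · exact absurd h1 hrs

end ND

end Cfsg.Agent.H559.D2
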