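import Cfsg.Agent.H559.D2.Count

/-!
# S3691, residual case F-D+2: counting in an anisotropic plane (helper559)

`P` an anisotropic plane over the field with `q` elements (all characteristics):
* `exists_polar_ne` : the polar form is nondegenerate on `P`
* `card_conic` : `q + 1` vectors of given norm; `card_two` : two partners; `card_plane` : `2 (q + 1)` pairs with given Gram data
-/

set_option autoImplicit false
set_option linter.unusedSectionVars false

namespace Cfsg.Agent.H559.D2

open QuadraticMap Module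
open Cfsg.Agent.LieClassical.OrthCore Cfsg.Agent.LieClassical.OrthTrans

variable {F V : Type*} [Field F] [Finite F] [AddCommGroup V] [Module F V] [FiniteDimensional F V] {Q : QuadraticForm F V}
  {P : Submodule F V}

theorem exists_polar_ne (hP : 2 ≤ finrank F P) (han : ∀ x ∈ P, Q x = 0 → x = 0) {x : V} (hx : x ∈ P) (hx0 : x ≠ 0) :
    ∃ y ∈ P, polar Q x y ≠ 0 := by
  by_contra hcon
  push Not at hcon
  have hQx : Q x ≠ 0 := fun h => hx0 (han x hx h)
  have h1 := hcon x hx
  rw [polar_self'] at h1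
  have h2 : (2 : F) = 0 := (mul_eq_zero.1 h1).resolve_right hQx
  obtain ⟨y, hy, hyx⟩ : ∃ y ∈ P, y ∉ F ∙ x := by
    by_contra hc
    push Not at hc
    have h3 := Submodule.finrank_mono (show P ≤ F ∙ x from hc)
    rw [finrank_span_singleton hx0] at h3
    omega
  have h3 : ringChar F = 2 := by
    have := ringChar.charP F
    have h4 : ringChar F ∣ 2 := (ringChar.spec F 2).1 (by exact_mod_cast h2)
    exact ((Nat.prime_dvd_prime_iff_eq (CharP.char_is_prime F (ringChar F)) Nat.prime_two).1 h4)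
  obtain ⟨a, ha⟩ := FiniteField.isSquare_of_char_two h3 (Q y * (Q x)⁻¹)
  have h4 : Q (y + a • x) = 0 := by
    rw [Q_add, QuadraticMap.map_smul, smul_eq_mul, polar_smul_right, smul_eq_mul, polar_comm, hcon y hy, mul_zero, add_zero, ← ha,
      mul_assoc, inv_mul_cancel₀ hQx, mul_one, ← two_mul, h2, zero_mul]
  have h5 := han _ (P.add_mem hy (P.smul_mem a hx)) h4
  apply hyx
  rw [Submodule.mem_span_singleton]
  refine ⟨-a, ?_⟩
  rw [neg_smul, ← sub_eq_zero, ← neg_eq_zero, ← h5]
  abel

/-- the perp of `u` in `P` is a line -/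
theorem exists_perp_line (hP : finrank F P = 2) (han : ∀ x ∈ P, Q x = 0 → x = 0) {u : V} (hu : u ∈ P) (hu0 : u ≠ 0) :
    ∃ d ∈ P, d ≠ 0 ∧ polar Q u d = 0 ∧ ∀ x ∈ P, polar Q u x = 0 → ∃ s : F, x = s • d := by
  obtain ⟨y, hy, hyn⟩ := exists_polar_ne (by omega) han hu hu0
  have h1 : ((polarBilin Q u).comp P.subtype) ≠ 0 := by
    intro h
    apply hyn
    exact LinearMap.congr_fun h ⟨y, hy⟩
  have h2 : finrank F (LinearMap.ker ((polarBilin Q u).comp P.subtype)) = 1 := by
    have h3 := LinearMap.finrank_range_add_finrank_ker ((polarBilin Q u).comp P.subtype)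
    have h4 : finrank F (LinearMap.range ((polarBilin Q u).comp P.subtype)) = 1 := by
      have h5 : LinearMap.range ((polarBilin Q u).comp P.subtype) = ⊤ :=
        LinearMap.range_eq_top.2 (LinearMap.surjective h1)
      rw [h5, finrank_top, finrank_self]
    omega
  obtain ⟨d, hd0, hd⟩ := finrank_eq_one_iff'.1 h2
  refine ⟨(d : P), (d : P).2, fun h => hd0 (Subtype.ext (Subtype.ext h)), d.2, fun x hx hux => ?_⟩
  obtain ⟨s, hs⟩ := hd ⟨⟨x, hx⟩, hux⟩
  exact ⟨s, (congrArg (fun z : LinearMap.ker ((polarBilin Q u).comp P.subtype) => ((z : P) : V)) hs).symm⟩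

/-- the vectors of `P` reflecting `u` to `x` -/
theorem exists_dir (hP : finrank F P = 2) (han : ∀ x ∈ P, Q x = 0 → x = 0) {u x : V} (hu : u ∈ P) (hu0 : u ≠ 0) (hx : x ∈ P)
    (hxu : Q x = Q u) : ∃ d₀ ∈ P, d₀ ≠ 0 ∧ ∀ d ∈ P, d ≠ 0 →
      (u - ((Q d)⁻¹ * polar Q d u) • d = x ↔ ∃ s : Fˣ, d = (s : F) • d₀) := by
  by_cases hxe : x = u
  · subst hxe
    obtain ⟨d₀, hd₀, hd0, hd1, hd2⟩ := exists_perp_line hP han hx hu0
    refine ⟨d₀, hd₀, hd0, fun d hd hdn => ?_⟩
    have hQd : Q d ≠ 0 := fun h => hdn (han d hd h)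
    have h1 : x - ((Q d)⁻¹ * polar Q d x) • d = x ↔ polar Q x d = 0 := by
      rw [sub_eq_self, smul_eq_zero, mul_eq_zero, polar_comm]
      constructor
      · rintro ((h | h) | h)
        · exact absurd (inv_eq_zero.1 h) hQd
        · exact h
        · exact absurd h hdn
      · exact fun h => Or.inl (Or.inr h)
    rw [h1]
    constructor
    · intro h
      obtain ⟨s, hs⟩ := hd2 d hd h
      have hs0 : s ≠ 0 := by
        rintro rfl
        exact hdn (by rw [hs, zero_smul])
      exact ⟨Units.mk0 s hs0, hs⟩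
    · rintro ⟨s, rfl⟩
      rw [polar_smul_right, hd1, smul_zero]
  · have hd0 : u - x ≠ 0 := sub_ne_zero.2 (Ne.symm hxe)
    have hdP : u - x ∈ P := P.sub_mem hu hx
    have hQd : Q (u - x) ≠ 0 := fun h => hd0 (han _ hdP h)
    refine ⟨u - x, hdP, hd0, fun d hd hdn => ?_⟩
    have hQd' : Q d ≠ 0 := fun h => hdn (han d hd h)
    constructor
    · intro h
      have h1 : ((Q d)⁻¹ * polar Q d u) • d = u - x := by rw [← h]; abel
      have hs0 : (Q d)⁻¹ * polar Q d u ≠ 0 := by
        intro h0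
        rw [h0, zero_smul] at h1
        exact hd0 h1.symm
      refine ⟨(Units.mk0 _ hs0)⁻¹, ?_⟩
      rw [Units.val_inv_eq_inv_val, Units.val_mk0, ← h1, smul_smul, inv_mul_cancel₀ hs0, one_smul]
    · rintro ⟨s, hs⟩
      have hs0 : (s : F) ≠ 0 := s.ne_zero
      have h2 := refl_sub_apply (Q := Q) (x := x) (y := u) hxu hQd
      have h3 : Q ((s : F) • (u - x)) ≠ 0 := by rw [← hs]; exact hQd'
      have h4 : refl Q ((s : F) • (u - x)) h3 u = refl Q (u - x) hQd u := by rw [refl_smul hQd hs0 h3]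
      rw [h2, refl_apply] at h4
      rw [hs]
      exact h4

/-- **the number of vectors of given norm in an anisotropic plane** -/
theorem card_conic (hP : finrank F P = 2) (han : ∀ x ∈ P, Q x = 0 → x = 0) {u : V} (hu : u ∈ P) (hu0 : u ≠ 0) :
    Nat.card {x : V // x ∈ P ∧ Q x = Q u} = Nat.card F + 1 := by
  classical
  have : Finite V := Module.finite_of_finite F
  set f : {d : V // d ∈ P ∧ d ≠ 0} → {x : V // x ∈ P ∧ Q x = Q u} := fun d =>
    ⟨u - ((Q d.1)⁻¹ * polar Q d.1 u) • d.1, P.sub_mem hu (P.smul_mem _ d.2.1), by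
      have hQd : Q d.1 ≠ 0 := fun h => d.2.2 (han d.1 d.2.1 h)
      have h1 := refl_mem_O hQd u
      rwa [refl_apply] at h1⟩ with hf
  have hfib : ∀ x, Nat.card {d // f d = x} = Nat.card F - 1 := by
    rintro ⟨x, hx, hxu⟩
    obtain ⟨d₀, hd₀, hd0, hd⟩ := exists_dir hP han hu hu0 hx hxu
    rw [← Nat.card_units]
    symm
    refine Nat.card_congr (Equiv.ofBijective (fun s : Fˣ => (⟨⟨(s : F) • d₀, P.smul_mem _ hd₀,
      smul_ne_zero s.ne_zero hd0⟩, Subtype.ext ((hd _ (P.smul_mem _ hd₀) (smul_ne_zero s.ne_zero hd0)).2 ⟨s, rfl⟩)⟩ :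
        {d // f d = ⟨x, hx, hxu⟩})) ⟨?_, ?_⟩)
    · intro s t hst
      have h1 : (s : F) • d₀ = (t : F) • d₀ := congrArg (fun z => (z.1.1 : V)) hst
      have h2 : ((s : F) - t) • d₀ = 0 := by rw [sub_smul, h1, sub_self]
      exact Units.ext (sub_eq_zero.1 ((smul_eq_zero.1 h2).resolve_right hd0))
    · rintro ⟨⟨d, hdP, hdn⟩, hfd⟩
      obtain ⟨s, hs⟩ := (hd d hdP hdn).1 (congrArg Subtype.val hfd)
      exact ⟨s, Subtype.ext (Subtype.ext hs.symm)⟩
  have := Fintype.ofFinite {x : V // x ∈ P ∧ Q x = Q u}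
  have h1 : Nat.card {d : V // d ∈ P ∧ d ≠ 0} = Nat.card {x : V // x ∈ P ∧ Q x = Q u} * (Nat.card F - 1) := by
    rw [← Nat.card_congr (Equiv.sigmaFiberEquiv f), Nat.card_sigma, Finset.sum_congr rfl fun x _ => hfib x, Finset.sum_const,
      smul_eq_mul, Finset.card_univ, ← Nat.card_eq_fintype_card]
  have h2 : Nat.card {d : V // d ∈ P ∧ d ≠ 0} + 1 = Nat.card F ^ 2 := by
    rw [← hP, ← card_submodule P]
    have h3 : {d : V // d ∈ P ∧ d ≠ 0} ≃ {d : P // d ≠ 0} :=
      { toFun := fun d => ⟨⟨d.1, d.2.1⟩, fun h => d.2.2 (congrArg Subtype.val h)⟩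
        invFun := fun d => ⟨d.1, d.1.2, fun h => d.2 (Subtype.ext h)⟩
        left_inv := fun d => rfl
        right_inv := fun d => rfl }
    rw [Nat.card_congr h3]
    have := Fintype.ofFinite P
    rw [Nat.card_eq_fintype_card, Nat.card_eq_fintype_card, Fintype.card_subtype_compl, Fintype.card_subtype_eq]
    have : 0 < Fintype.card P := Fintype.card_pos
    omega
  have hq := q_gt (F := F)
  obtain ⟨r, hr⟩ : ∃ r, Nat.card F = r + 1 := ⟨Nat.card F - 1, by omega⟩
  rw [h1, hr, Nat.add_sub_cancel] at h2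
  rw [hr]
  have h3 : (r + 1) ^ 2 = (r + 2) * r + 1 := by ring
  rw [h3] at h2
  exact Nat.eq_of_mul_eq_mul_right (by omega) (Nat.succ_injective h2)

/-- **two partners** -/
theorem card_two (hP : finrank F P = 2) (han : ∀ x ∈ P, Q x = 0 → x = 0) {u w : V} (hu : u ∈ P) (hu0 : u ≠ 0) (hw : w ∈ P)
    (hi : ∀ s : F, w ≠ s • u) : Nat.card {x : V // x ∈ P ∧ polar Q u x = polar Q u w ∧ Q x = Q w} = 2 := by
  obtain ⟨d, hd, hd0, hud, hall⟩ := exists_perp_line hP han hu hu0
  have hQd : Q d ≠ 0 := fun h => hd0 (han d hd h)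
  have hwd : polar Q w d ≠ 0 := by
    intro h
    obtain ⟨y, hy, hyn⟩ := exists_polar_ne (by omega) han hd hd0
    apply hyn
    -- `u, w` span `P`
    have h1 : Submodule.span F {u, w} = P := by
      refine Submodule.eq_of_le_of_finrank_eq ?_ ?_
      · rw [Submodule.span_le]
        rintro _ (rfl | rfl)
        · exact hu
        · exact hw
      · rw [hP]
        have h2 : LinearIndependent F ![u, w] := by
          rw [LinearIndependent.pair_iff]
          intro s t hst
          have ht : t = 0 := by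
            by_contra ht
            apply hi (-(t⁻¹ * s))
            have h3 : t⁻¹ • (s • u + t • w) = 0 := by rw [hst, smul_zero]
            rw [smul_add, smul_smul, smul_smul, inv_mul_cancel₀ ht, one_smul] at h3
            rw [neg_smul]
            exact eq_neg_of_add_eq_zero_right h3
          rw [ht, zero_smul, add_zero] at hst
          exact ⟨(smul_eq_zero.1 hst).resolve_right hu0, ht⟩
        have h3 := finrank_span_eq_card h2
        have h4 : Set.range ![u, w] = {u, w} := by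
          ext x
          simp [eq_comm, or_comm]
        rwa [h4, Fintype.card_fin] at h3
    rw [← h1, Submodule.mem_span_pair] at hy
    obtain ⟨a, b, rfl⟩ := hy
    rw [polar_add_right, polar_smul_right, polar_smul_right, polar_comm Q d u, polar_comm Q d w, hud, h, smul_zero, smul_zero, add_zero]
  have h2 : {x : V | x ∈ P ∧ polar Q u x = polar Q u w ∧ Q x = Q w} = {w, w + (-((Q d)⁻¹ * polar Q w d)) • d} := by
    ext x
    simp only [Set.mem_ofPred_eq, Set.mem_insert_iff, Set.mem_singleton_iff]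
    constructor
    · rintro ⟨hx, h3, h4⟩
      obtain ⟨s, hs⟩ := hall (x - w) (P.sub_mem hx hw) (by rw [polar_sub_right, h3, sub_self])
      have h5 : x = w + s • d := by rw [← hs]; abel
      rw [h5, Q_add, QuadraticMap.map_smul, polar_smul_right, smul_eq_mul, smul_eq_mul] at h4
      have h6 : s * (s * Q d + polar Q w d) = 0 := by linear_combination h4
      rcases mul_eq_zero.1 h6 with h7 | h7
      · left; rw [h5, h7, zero_smul, add_zero]
      · right
        rw [h5]
        congr 2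
        field_simp
        linear_combination h7
    · rintro (rfl | rfl)
      · exact ⟨hw, rfl, rfl⟩
      · refine ⟨P.add_mem hw (P.smul_mem _ hd), ?_, ?_⟩
        · rw [polar_add_right, polar_smul_right, hud, smul_zero, add_zero]
        · rw [Q_add, QuadraticMap.map_smul, polar_smul_right, smul_eq_mul, smul_eq_mul]
          field_simp
          ring
  have h3 : Nat.card {x : V // x ∈ P ∧ polar Q u x = polar Q u w ∧ Q x = Q w} =
      ({x : V | x ∈ P ∧ polar Q u x = polar Q u w ∧ Q x = Q w}).ncard := rfl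
  rw [h3, h2, Set.ncard_pair]
  intro h
  have h4 : (-((Q d)⁻¹ * polar Q w d)) • d = 0 := by
    have := h.symm
    rwa [add_eq_left] at this
  rcases smul_eq_zero.1 h4 with h5 | h5
  · rw [neg_eq_zero, mul_eq_zero] at h5
    rcases h5 with h5 | h5
    · exact hQd (inv_eq_zero.1 h5)
    · exact hwd h5
  · exact hd0 h5

/-- **pairs with given Gram data in an anisotropic plane** -/
theorem card_plane (hP : finrank F P = 2) (han : ∀ x ∈ P, Q x = 0 → x = 0) {u w : V} (hu : u ∈ P) (hu0 : u ≠ 0) (hw : w ∈ P)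
    (hi : ∀ s : F, w ≠ s • u) :
    Nat.card {x : V × V // x.1 ∈ P ∧ x.2 ∈ P ∧ Q x.1 = Q u ∧ polar Q x.1 x.2 = polar Q u w ∧ Q x.2 = Q w} =
      (Nat.card F + 1) * 2 := by
  classical
  have : Finite V := Module.finite_of_finite F
  have e : {x : V × V // x.1 ∈ P ∧ x.2 ∈ P ∧ Q x.1 = Q u ∧ polar Q x.1 x.2 = polar Q u w ∧ Q x.2 = Q w} ≃
      Σ y : {y : V // y ∈ P ∧ Q y = Q u}, {x : V // x ∈ P ∧ polar Q y x = polar Q u w ∧ Q x = Q w} :=
    { toFun := fun x => ⟨⟨x.1.1, x.2.1, x.2.2.2.1⟩, x.1.2, x.2.2.1, x.2.2.2.2.1, x.2.2.2.2.2⟩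
      invFun := fun x => ⟨(x.1.1, x.2.1), x.1.2.1, x.2.2.1, x.1.2.2, x.2.2.2.1, x.2.2.2.2⟩
      left_inv := fun x => rfl
      right_inv := fun x => rfl }
  have := Fintype.ofFinite {y : V // y ∈ P ∧ Q y = Q u}
  have hfib : ∀ y : {y : V // y ∈ P ∧ Q y = Q u},
      Nat.card {x : V // x ∈ P ∧ polar Q y x = polar Q u w ∧ Q x = Q w} = 2 := by
    rintro ⟨y, hy, hyu⟩
    -- a reflection of `P` maps `u` to `y`
    obtain ⟨d, hd, hd0, hdir⟩ := exists_dir hP han hu hu0 hy hyu
    have hQd : Q d ≠ 0 := fun h => hd0 (han d hd h)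
    have hgu : refl Q d hQd u = y := by
      rw [refl_apply]
      exact (hdir d hd hd0).2 ⟨1, by rw [Units.val_one, one_smul]⟩
    have hgw : refl Q d hQd w ∈ P := by
      rw [refl_apply]
      exact P.sub_mem hw (P.smul_mem _ hd)
    have hO := refl_mem_O hQd
    have h1 : polar Q y (refl Q d hQd w) = polar Q u w := by rw [← hgu, polar_map hO]
    have h2 : Q (refl Q d hQd w) = Q w := hO w
    have h3 := card_two hP han hy (by
      rintro rfl
      rw [QuadraticMap.map_zero] at hyu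
      exact hu0 (han u hu hyu.symm)) hgw (fun s hs => hi s (by
        apply (refl Q d hQd).injective
        rw [map_smul, hgu, hs]))
    rw [h1, h2] at h3
    exact h3
  rw [Nat.card_congr e, Nat.card_sigma, Finset.sum_congr rfl fun y _ => hfib y, Finset.sum_const, smul_eq_mul, Finset.card_univ,
    ← Nat.card_eq_fintype_card, card_conic hP han hu hu0]

end Cfsg.Agent.H559.D2
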